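import Cfsg.Agent.H286.RV.Abs
import Cfsg.Agent.H561.D4.Boxes

/-!
# S4311, box D2 (helper286, task 5646)
-/

set_option autoImplicit false

namespace Cfsg.Agent.H286.RV

universe u

/-- **BOX D2** -/
theorem boxD2 {S : Type u} [Group S] [Finite S] : Cfsg.Agent.H561.D4.BoxD2 S := fun _ _ h =>
  HH.main ⟨h.comm, h.inj, h.perm, h.trans, h.three, h.disj, h.inter⟩

end Cfsg.Agent.H286.RV
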